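import Cfsg.Agent.SpGeom.Basic

/-!
The short root elements of the symplectic group as products of transvections.
-/

set_option autoImplicit false

namespace CfsgLib.SpTwoGen

open Matrix CfsgLib.SpGeom

variable {F : Type*} [Field F] {m : ℕ}

local notation "V" => (Fin m ⊕ Fin m → F)
local notation "Sp" => Matrix.symplecticGroup (Fin m) F
local notation "f" => Cfsg.sympForm m F
local notation "mat" A:max => ((A : Sp) : Matrix (Fin m ⊕ Fin m) (Fin m ⊕ Fin m) F)

/-- the short root element of an orthogonal pair -/
def yv (u v : V) (c : F) : Sp := tv (u + v) c * tv u (-c) * tv v (-c)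

theorem yv_mulVec {u v : V} (h : f u v = 0) (c : F) (x : V) :
    mat (yv u v c) *ᵥ x = x + (c * f x u) • v + (c * f x v) • u := by
  have h' : f v u = 0 := by rw [form_skew, h, neg_zero]
  simp only [yv, coe_mul', ← Matrix.mulVec_mulVec, tv_mulVec, form_add_left, form_add_right,
    form_smul_left, form_self, h, h', mul_zero, add_zero, zero_add]
  module

theorem yv_conj (A : Sp) (u v : V) (c : F) :
    A * yv u v c * A⁻¹ = yv (mat A *ᵥ u) (mat A *ᵥ v) c := by
  rw [yv, yv, ← Matrix.mulVec_add, ← tv_conj, ← tv_conj, ← tv_conj]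
  group

theorem yv_comm {u v : V} (h : f u v = 0) (c : F) : yv u v c = yv v u c := by
  have h' : f v u = 0 := by rw [form_skew, h, neg_zero]
  exact ext_mulVec fun x => by rw [yv_mulVec h, yv_mulVec h', add_right_comm]

theorem yv_mul {u v : V} (h : f u v = 0) (a b : F) : yv u v a * yv u v b = yv u v (a + b) := by
  have h' : f v u = 0 := by rw [form_skew, h, neg_zero]
  refine ext_mulVec fun x => ?_
  simp only [coe_mul', ← Matrix.mulVec_mulVec, yv_mulVec h, form_add_left, form_smul_left,
    form_self, h, h', mul_zero, add_zero]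
  module

theorem yv_zero {u v : V} (h : f u v = 0) : yv u v (0 : F) = 1 :=
  ext_mulVec fun x => by rw [yv_mulVec h, coe_one', Matrix.one_mulVec]; simp

theorem yv_inv {u v : V} (h : f u v = 0) (c : F) : (yv u v c)⁻¹ = yv u v (-c) :=
  inv_eq_of_mul_eq_one_right (by rw [yv_mul h, add_neg_cancel, yv_zero h])

theorem yv_smul {u v : V} (h : f u v = 0) (a c : F) : yv (a • u) v c = yv u v (a * c) := by
  refine ext_mulVec fun x => ?_
  rw [yv_mulVec (by rw [form_smul_left, h, mul_zero]), yv_mulVec h, form_smul_right, smul_smul]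
  ring_nf

theorem yv_self (u : V) (a c : F) : yv (a • u) u c = tv u (2 * a * c) := by
  refine ext_mulVec fun x => ?_
  rw [yv_mulVec (by rw [form_smul_left, form_self, mul_zero]), tv_mulVec, form_smul_right,
    smul_smul, add_assoc, ← add_smul]
  ring_nf

theorem yv_add {u u' v : V} (h : f u v = 0) (h' : f u' v = 0) (c : F) :
    yv (u + u') v c = yv u v c * yv u' v c * tv v (-(c ^ 2 * f u' u)) := by
  have hv : f v u = 0 := by rw [form_skew, h, neg_zero]
  have hv' : f v u' = 0 := by rw [form_skew, h', neg_zero]
  refine ext_mulVec fun x => ?_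
  simp only [coe_mul', ← Matrix.mulVec_mulVec,
    yv_mulVec (show f (u + u') v = 0 by rw [form_add_left, h, h', add_zero]), yv_mulVec h,
    yv_mulVec h', tv_mulVec, form_add_left, form_add_right, form_smul_left, form_self, h, h', hv,
    hv', mul_zero, add_zero]
  module

end CfsgLib.SpTwoGen
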